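import Cfsg.Agent.Mathieu.Fast
import Cfsg.Agent.Mathieu.Subgroups

/-!
Six-point sets of the 24 points, and the stabiliser of an octad.
-/

set_option autoImplicit false

open scoped Pointwise

namespace CfsgLib.Mathieu

open Cfsg CfsgLib.Golay

theorem fix5_facts :
    (List.range 24).all (fun i => [0, 1, 2, 3, 4].contains i || (List.range 24).all fun j =>
      [0, 1, 2, 3, 4].contains j || !(octO.testBit i == octO.testBit j) ||
        fixList5F.any fun t => ap (pk t) i == j) = true ∧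
    fixList5F.Nodup ∧
    (List.range 24).all (fun i => [0, 1, 2, 3, 4].contains i ||
      (fixList5F.filter fun t => ap (pk t) i == i).length ==
        if octO.testBit i then 16 else 3) = true := by decide +kernel

theorem mem_five_iff (r : GolayPt) :
    r ∈ [0, 1, 2, 3, 4].map i2p ↔ p2i r ∈ [0, 1, 2, 3, 4] := by
  constructor
  · intro h
    obtain ⟨i, hi, rfl⟩ := List.mem_map.1 h
    rw [p2i_i2p i (by simp only [List.mem_cons, List.not_mem_nil, or_false] at hi; omega)]
    exact hi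
  · exact fun h => List.mem_map.2 ⟨_, h, i2p_p2i r⟩

theorem exists_map_outside_five {r r' : GolayPt} (hr : r ∉ [0, 1, 2, 3, 4].map i2p)
    (hr' : r' ∉ [0, 1, 2, 3, 4].map i2p) (h : r ∈ ofMask octO ↔ r' ∈ ofMask octO) :
    ∃ c ∈ base7Fix 5, c r = r' := by
  rw [mem_five_iff] at hr hr'
  rw [mem_ofMask_iff, mem_ofMask_iff, ← Bool.eq_iff_iff] at h
  have h1 := List.all_eq_true.1 fix5_facts.1 _ (List.mem_range.2 (p2i_lt r))
  simp only [Bool.or_eq_true, List.contains_eq_mem, decide_eq_true_eq, List.all_eq_true] at h1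
  have h2 := h1.resolve_left hr _ (List.mem_range.2 (p2i_lt r'))
  simp only [List.any_eq_true, Bool.not_eq_true', beq_iff_eq, h, beq_self_eq_true,
    Bool.true_eq_false, or_false] at h2
  obtain ⟨t, ht, e⟩ := h2.resolve_left hr'
  rw [fixList5F_eq] at ht
  obtain ⟨c, hc, rfl⟩ := rep_fixList5 t ht
  rw [ap_toTab'] at e
  exact ⟨c, hc, p2i_injective e⟩

theorem octO_five : ∀ i ∈ [0, 1, 2, 3, 4], i2p i ∈ ofMask octO := by
  intro i hi
  have hall : [0, 1, 2, 3, 4].all (fun i => octO.testBit (p2i (i2p i))) = true := by decide +kernel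
  rw [mem_ofMask_iff]
  exact List.all_eq_true.1 hall i hi

/-- Some octad contains all six listed points. -/
def SixInOctad (x : Fin 6 → GolayPt) : Prop := ∃ o ∈ octads, ∀ i, x i ∈ o

/-- Normal form of a listed six-point set. -/
theorem exists_normal_six {x : Fin 6 → GolayPt} (hx : Function.Injective x) :
    ∃ a ∈ M24, ∃ r, r ∉ [0, 1, 2, 3, 4].map i2p ∧ (∀ i : Fin 5, a (i2p i) = x i.castSucc) ∧
      a r = x (Fin.last 5) ∧ (SixInOctad x ↔ r ∈ ofMask octO) := by
  obtain ⟨a, ha, hax⟩ := exists_map_five_fun (x := fun i : Fin 5 => i2p i)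
    (y := fun i => x i.castSucc)
    (fun i j e => Fin.ext (i2p_inj (by omega) (by omega) e))
    (hx.comp (Fin.castSucc_injective 5))
  refine ⟨a, ha, a⁻¹ (x (Fin.last 5)), ?_, hax, by simp, ?_⟩
  · intro hmem
    obtain ⟨i, hi, e⟩ := List.mem_map.1 hmem
    have hi5 : i < 5 := by simp only [List.mem_cons, List.not_mem_nil, or_false] at hi; omega
    have e2 : a (i2p i) = x (Fin.last 5) := by rw [e]; simp
    have e3 := hax ⟨i, hi5⟩
    rw [show i2p ((⟨i, hi5⟩ : Fin 5) : ℕ) = i2p i from rfl, e2] at e3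
    exact absurd (hx e3) (Fin.castSucc_ne_last _).symm
  constructor
  · rintro ⟨o, ho, hmem⟩
    have heq : a • ofMask octO = o := by
      refine octad_unique (s := (Finset.univ : Finset (Fin 5)).image fun i => x i.castSucc)
        (by rw [Finset.card_image_of_injective _ (fun i j e =>
          Fin.castSucc_injective 5 (hx e)), Finset.card_univ, Fintype.card_fin])
        (smul_mem_octads ha octO_mem_octads) ho ?_ ?_
      · intro p hp
        simp only [Finset.mem_image, Finset.mem_univ, true_and] at hp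
        obtain ⟨i, rfl⟩ := hp
        rw [← hax i]
        refine Finset.mem_smul_finset.2 ⟨_, octO_five i ?_, rfl⟩
        have := i.2
        simp only [List.mem_cons, List.not_mem_nil, or_false]
        omega
      · intro p hp
        simp only [Finset.mem_image, Finset.mem_univ, true_and] at hp
        obtain ⟨i, rfl⟩ := hp
        exact hmem _
    rw [← Equiv.Perm.smul_def, Finset.inv_smul_mem_iff, heq]
    exact hmem _
  · intro h
    refine ⟨a • ofMask octO, smul_mem_octads ha octO_mem_octads, fun i => ?_⟩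
    refine Fin.lastCases ?_ (fun j => ?_) i
    · rw [← Equiv.Perm.smul_def, Finset.inv_smul_mem_iff] at h
      exact h
    · rw [← hax j]
      refine Finset.mem_smul_finset.2 ⟨_, octO_five j ?_, rfl⟩
      have := j.2
      simp only [List.mem_cons, List.not_mem_nil, or_false]
      omega

/-- `M24` is transitive on ordered six-point sets of either kind. -/
theorem exists_map_six {x y : Fin 6 → GolayPt} (hx : Function.Injective x)
    (hy : Function.Injective y) (h : SixInOctad x ↔ SixInOctad y) :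
    ∃ g ∈ M24, ∀ i, g (x i) = y i := by
  obtain ⟨a, ha, r, hr, hax, har, hoa⟩ := exists_normal_six hx
  obtain ⟨b, hb, r', hr', hby, hbr, hob⟩ := exists_normal_six hy
  obtain ⟨c, hc, hcr⟩ := exists_map_outside_five hr hr' (hoa.symm.trans (h.trans hob))
  obtain ⟨hcM, hcfix⟩ := mem_base7Fix.1 hc
  refine ⟨b * c * a⁻¹, M24.mul_mem (M24.mul_mem hb hcM) (M24.inv_mem ha), fun i => ?_⟩
  refine Fin.lastCases ?_ (fun j => ?_) i
  · show b (c (a⁻¹ (x (Fin.last 5)))) = y (Fin.last 5)
    rw [← har, Equiv.Perm.coe_inv, Equiv.symm_apply_apply, hcr, hbr]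
  · have hj : (j : ℕ) ∈ base7.take 5 := by
      have := j.2
      rw [show base7.take 5 = [0, 1, 2, 3, 4] from rfl]
      simp only [List.mem_cons, List.not_mem_nil, or_false]
      omega
    show b (c (a⁻¹ (x j.castSucc))) = y j.castSucc
    rw [← hax j, Equiv.Perm.coe_inv, Equiv.symm_apply_apply, hcfix _ hj, hby j]

theorem ncard_fix_six {x : Fin 6 → GolayPt} (hx : Function.Injective x) :
    (SixInOctad x → {g : Equiv.Perm GolayPt | g ∈ M24 ∧ ∀ i, g (x i) = x i}.ncard = 16) ∧
    (¬ SixInOctad x → {g : Equiv.Perm GolayPt | g ∈ M24 ∧ ∀ i, g (x i) = x i}.ncard = 3) := by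
  classical
  obtain ⟨a, ha, r, hr, hax, har, ho⟩ := exists_normal_six hx
  rw [mem_five_iff] at hr
  have hcount := List.all_eq_true.1 fix5_facts.2.2 _ (List.mem_range.2 (p2i_lt r))
  simp only [Bool.or_eq_true, List.contains_eq_mem, decide_eq_true_eq, beq_iff_eq] at hcount
  replace hcount := hcount.resolve_left hr
  set L := fixList5F.filter fun t => ap (pk t) (p2i r) == p2i r with hL
  have himg : (fun g => toTab (a⁻¹ * g * a)) ''
      {g : Equiv.Perm GolayPt | g ∈ M24 ∧ ∀ i, g (x i) = x i} = ↑L.toFinset := by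
    ext t
    simp only [List.coe_toFinset, Set.mem_image, Set.mem_setOf_eq, hL, List.mem_filter, beq_iff_eq]
    constructor
    · rintro ⟨g, ⟨hg, hfix⟩, rfl⟩
      have hmem : a⁻¹ * g * a ∈ base7Fix 5 := by
        refine mem_base7Fix.2 ⟨M24.mul_mem (M24.mul_mem (M24.inv_mem ha) hg) ha, fun b hb => ?_⟩
        rw [show base7.take 5 = [0, 1, 2, 3, 4] from rfl] at hb
        have hb5 : b < 5 := by simp only [List.mem_cons, List.not_mem_nil, or_false] at hb; omega
        have e := hax ⟨b, hb5⟩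
        simp only at e
        show a⁻¹ (g (a (i2p b))) = i2p b
        rw [e, hfix, ← e, Equiv.Perm.coe_inv, Equiv.symm_apply_apply]
      rw [fixList5F_eq, ap_toTab']
      refine ⟨toTab_mem_fixList5 hmem, congrArg p2i ?_⟩
      simp only [Equiv.Perm.mul_apply, har, hfix, Equiv.Perm.coe_inv]
      rw [Equiv.symm_apply_eq, har]
    · rintro ⟨ht, e⟩
      rw [fixList5F_eq] at ht
      obtain ⟨c, hc, rfl⟩ := rep_fixList5 t ht
      rw [ap_toTab'] at e
      refine ⟨a * c * a⁻¹, ⟨M24.mul_mem (M24.mul_mem ha (mem_base7Fix.1 hc).1) (M24.inv_mem ha),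
        fun i => ?_⟩, by rw [show a⁻¹ * (a * c * a⁻¹) * a = c by group]⟩
      refine Fin.lastCases ?_ (fun j => ?_) i
      · exact (conj_fix_iff a c r _ har).2 (p2i_injective e)
      · refine (conj_fix_iff a c (i2p j) _ (hax j)).2 ((mem_base7Fix.1 hc).2 _ ?_)
        have := j.2
        rw [show base7.take 5 = [0, 1, 2, 3, 4] from rfl]
        simp only [List.mem_cons, List.not_mem_nil, or_false]
        omega
  have hn : {g : Equiv.Perm GolayPt | g ∈ M24 ∧ ∀ i, g (x i) = x i}.ncard = L.length := by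
    rw [← Set.ncard_image_of_injective _ (f := fun g => toTab (a⁻¹ * g * a))
      (fun g g' e => by simpa using toTab_injective e), himg, Set.ncard_coe_finset,
      List.toFinset_card_of_nodup (fix5_facts.2.1.filter _)]
  rw [hn, hcount, ho, mem_ofMask_iff]
  constructor <;> intro hh <;> simp [hh]

theorem mem_fixSet_iff {H : Subgroup (Equiv.Perm GolayPt)} {s : Finset GolayPt}
    {g : Equiv.Perm GolayPt} : g ∈ fixSet H s ↔ g ∈ H ∧ g • s = s :=
  Subgroup.mem_inf.trans (and_congr_right fun _ => MulAction.mem_stabilizer_iff)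

theorem mem_iff_of_smul_eq {g : Equiv.Perm GolayPt} {s : Finset GolayPt} (h : g • s = s)
    (p : GolayPt) : g p ∈ s ↔ p ∈ s := by
  conv_lhs => rw [← h]
  rw [← Equiv.Perm.smul_def, Finset.smul_mem_smul_finset_iff]

/-- Restriction of the stabiliser of a set to that set. -/
def restrictHom (s : Finset GolayPt) : fixSet M24 s →* Equiv.Perm s where
  toFun g := (g : Equiv.Perm GolayPt).subtypePerm (mem_iff_of_smul_eq (mem_fixSet_iff.1 g.2).2)
  map_one' := Equiv.ext fun p => Subtype.ext rfl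
  map_mul' g h := Equiv.ext fun p => Subtype.ext rfl

theorem restrictHom_apply (s : Finset GolayPt) (g : fixSet M24 s) (p : s) :
    (restrictHom s g p : GolayPt) = (g : Equiv.Perm GolayPt) p := rfl

theorem exists_perm_six {E : Finset GolayPt} (hE : E.card = 6) (σ : Equiv.Perm E) :
    ∃ g ∈ M24, ∀ p : E, g p = σ p := by
  obtain ⟨e⟩ : Nonempty (Fin 6 ≃ E) := ⟨(Fintype.equivFinOfCardEq (by simpa using hE)).symm⟩
  have hx : Function.Injective fun i => (e i : GolayPt) := Subtype.val_injective.comp e.injective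
  have hy : Function.Injective fun i => (σ (e i) : GolayPt) :=
    Subtype.val_injective.comp (σ.injective.comp e.injective)
  obtain ⟨g, hg, h⟩ := exists_map_six hx hy ⟨fun ⟨o, ho, hm⟩ => ⟨o, ho, fun i => by
      obtain ⟨j, hj⟩ := e.surjective (σ (e i))
      show ((σ (e i) : E) : GolayPt) ∈ o
      rw [show ((σ (e i) : E) : GolayPt) = (e j : GolayPt) by rw [hj]]
      exact hm j⟩,
    fun ⟨o, ho, hm⟩ => ⟨o, ho, fun i => by
      obtain ⟨j, hj⟩ := e.surjective (σ⁻¹ (e i))
      have : σ (e j) = e i := by rw [hj]; simp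
      show (e i : GolayPt) ∈ o
      rw [← this]
      exact hm j⟩⟩
  exact ⟨g, hg, fun p => by obtain ⟨i, rfl⟩ := e.surjective p; exact h i⟩

theorem card_fix_six {E : Finset GolayPt} (hE : E.card = 6) :
    ((∃ o ∈ octads, E ⊆ o) →
      Nat.card {g : Equiv.Perm GolayPt // g ∈ M24 ∧ ∀ p ∈ E, g p = p} = 16) ∧
    (¬ (∃ o ∈ octads, E ⊆ o) →
      Nat.card {g : Equiv.Perm GolayPt // g ∈ M24 ∧ ∀ p ∈ E, g p = p} = 3) := by
  obtain ⟨e⟩ : Nonempty (Fin 6 ≃ E) := ⟨(Fintype.equivFinOfCardEq (by simpa using hE)).symm⟩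
  have hx : Function.Injective fun i => (e i : GolayPt) := Subtype.val_injective.comp e.injective
  have hset : {g : Equiv.Perm GolayPt | g ∈ M24 ∧ ∀ p ∈ E, g p = p} =
      {g : Equiv.Perm GolayPt | g ∈ M24 ∧ ∀ i, g (e i : GolayPt) = (e i : GolayPt)} := by
    ext g
    refine and_congr_right fun _ => ⟨fun h i => h _ (e i).2, fun h p hp => ?_⟩
    obtain ⟨i, hi⟩ := e.surjective ⟨p, hp⟩
    simpa [hi] using h i
  have hiff : (∃ o ∈ octads, E ⊆ o) ↔ SixInOctad fun i => (e i : GolayPt) :=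
    ⟨fun ⟨o, ho, h⟩ => ⟨o, ho, fun i => h (e i).2⟩, fun ⟨o, ho, h⟩ => ⟨o, ho, fun p hp => by
      obtain ⟨i, hi⟩ := e.surjective ⟨p, hp⟩
      simpa [hi] using h i⟩⟩
  have hn : Nat.card {g : Equiv.Perm GolayPt // g ∈ M24 ∧ ∀ p ∈ E, g p = p} =
      {g : Equiv.Perm GolayPt | g ∈ M24 ∧ ∀ p ∈ E, g p = p}.ncard :=
    Nat.card_coe_set_eq _
  rw [hn, hset, hiff]
  exact ncard_fix_six hx

theorem card_ker_restrictHom (s : Finset GolayPt) :
    Nat.card (restrictHom s).ker =
      Nat.card {g : Equiv.Perm GolayPt // g ∈ M24 ∧ ∀ p ∈ s, g p = p} := by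
  refine Nat.card_congr
    { toFun := fun g => ⟨g.1.1, (mem_fixSet_iff.1 g.1.2).1, fun p hp => ?_⟩
      invFun := fun g => ⟨⟨g.1, mem_fixSet_iff.2 ⟨g.2.1, ?_⟩⟩, ?_⟩
      left_inv := fun g => by rfl
      right_inv := fun g => by rfl }
  · exact congrArg Subtype.val (Equiv.Perm.ext_iff.1 g.2 ⟨p, hp⟩)
  · refine Finset.eq_of_subset_of_card_le ?_ (by rw [Finset.card_smul_finset])
    intro q hq
    obtain ⟨p, hp, rfl⟩ := Finset.mem_smul_finset.1 hq
    rw [Equiv.Perm.smul_def, g.2.2 p hp]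
    exact hp
  · exact MonoidHom.mem_ker.2 (Equiv.ext fun p => Subtype.ext (g.2.2 p.1 p.2))

theorem card_eq_ker_mul_range {G H : Type*} [Group G] [Group H] (f : G →* H) :
    Nat.card G = Nat.card f.ker * Nat.card f.range := by
  rw [← Subgroup.index_ker f, Subgroup.card_mul_index]

theorem card_fixSet_six {E : Finset GolayPt} (hE : E.card = 6)
    (h : ¬ ∃ o ∈ octads, E ⊆ o) : Nat.card (fixSet M24 E) = 2160 := by
  have hsurj : (restrictHom E).range = ⊤ := by
    rw [eq_top_iff]
    intro σ _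
    obtain ⟨g, hg, hp⟩ := exists_perm_six hE σ
    refine ⟨⟨g, mem_fixSet_iff.2 ⟨hg, Finset.eq_of_subset_of_card_le ?_
      (by rw [Finset.card_smul_finset])⟩⟩, Equiv.ext fun p => Subtype.ext (hp p)⟩
    intro q hq
    obtain ⟨p, hp', rfl⟩ := Finset.mem_smul_finset.1 hq
    rw [Equiv.Perm.smul_def, show g p = (σ ⟨p, hp'⟩ : GolayPt) from hp ⟨p, hp'⟩]
    exact (σ ⟨p, hp'⟩).2
  rw [card_eq_ker_mul_range (restrictHom E), card_ker_restrictHom, (card_fix_six hE).2 h, hsurj,
    Subgroup.card_top, Nat.card_perm, Nat.card_eq_finsetCard, hE]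
  rfl

theorem card_fixSet_octad {o : Finset GolayPt} (ho : o ∈ octads) :
    Nat.card (fixSet M24 o) = 322560 := by
  have h1 := MulAction.index_stabilizer M24 o
  have h2 : MulAction.orbit M24 o = octads := by
    ext s
    exact ⟨fun ⟨g, e⟩ => e ▸ smul_mem_octads g.2 ho,
      fun hs => by
        obtain ⟨g, hg, e⟩ := exists_map_octad ho hs
        exact ⟨⟨g, hg⟩, e⟩⟩
  rw [h2, ncard_octads] at h1
  have h3 := Subgroup.card_mul_index (MulAction.stabilizer M24 o)
  rw [h1, card_M24, Nat.card_congr (equivOfMapEq (map_stabilizer M24 o)).toEquiv] at h3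
  have e : fixSet M24 o = M24 ⊓ MulAction.stabilizer (Equiv.Perm GolayPt) o := rfl
  rw [e]
  omega

theorem card_range_restrictHom {o : Finset GolayPt} (ho : o ∈ octads) :
    Nat.card (restrictHom o).range = 20160 := by
  have h := card_eq_ker_mul_range (restrictHom o)
  rw [card_fixSet_octad ho, card_ker_restrictHom] at h
  have h16 : Nat.card {g : Equiv.Perm GolayPt // g ∈ M24 ∧ ∀ p ∈ o, g p = p} = 16 := by
    rw [← (octPointFix_spec ho).1]
    exact Nat.card_congr (Equiv.subtypeEquivRight fun g => by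
      rw [Subgroup.mem_inf, mem_fixingSubgroup_iff]; rfl)
  rw [h16] at h
  omega

theorem range_restrictHom {o : Finset GolayPt} (ho : o ∈ octads) :
    (restrictHom o).range = alternatingGroup o := by
  refine Equiv.Perm.eq_alternatingGroup_of_index_eq_two ?_
  have h := Subgroup.card_mul_index (restrictHom o).range
  rw [card_range_restrictHom ho, Nat.card_perm, Nat.card_eq_finsetCard, ho.2,
    show Nat.factorial 8 = 40320 from rfl] at h
  omega

theorem mem_octad_stab_iff {o : Finset GolayPt} {p : GolayPt} {g : Equiv.Perm GolayPt} :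
    g ∈ M24 ⊓ MulAction.stabilizer (Equiv.Perm GolayPt) o ⊓
      MulAction.stabilizer (Equiv.Perm GolayPt) p ↔ g ∈ fixSet M24 o ∧ g p = p :=
  Subgroup.mem_inf.trans (and_congr_right fun _ => MulAction.mem_stabilizer_iff)

theorem eq_one_of_octPointFix {o : Finset GolayPt} (ho : o ∈ octads) {p : GolayPt} (hp : p ∉ o)
    {g : Equiv.Perm GolayPt} (hg : g ∈ octPointFix o) (hgp : g p = p) : g = 1 := by
  rw [Subgroup.mem_inf, mem_fixingSubgroup_iff] at hg
  have hsub : insert p o ⊆ fixedPts g := fun x hx => by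
    rcases Finset.mem_insert.1 hx with rfl | hx
    · exact mem_fixedPts.2 hgp
    · exact mem_fixedPts.2 (hg.2 x hx)
  refine eq_one_of_nine_fixed hg.1 ?_
  have := Finset.card_le_card hsub
  rwa [Finset.card_insert_of_notMem hp, ho.2] at this

theorem octPointFix_le_fixSet {o : Finset GolayPt} : octPointFix o ≤ fixSet M24 o := by
  intro g hg
  rw [Subgroup.mem_inf, mem_fixingSubgroup_iff] at hg
  refine mem_fixSet_iff.2 ⟨hg.1, Finset.eq_of_subset_of_card_le ?_
    (by rw [Finset.card_smul_finset])⟩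
  intro q hq
  obtain ⟨r, hr, rfl⟩ := Finset.mem_smul_finset.1 hq
  rw [hg.2 r hr]
  exact hr

theorem orbSet_octPointFix {o : Finset GolayPt} (ho : o ∈ octads) {p : GolayPt} (hp : p ∉ o) :
    orbSet (octPointFix o) p = (↑(oᶜ) : Set GolayPt) := by
  refine Set.eq_of_subset_of_ncard_le ?_ ?_
  · rintro _ ⟨g, hg, rfl⟩
    rw [Finset.mem_coe, Finset.mem_compl]
    exact fun h => hp ((mem_iff_of_smul_eq (mem_fixSet_iff.1 (octPointFix_le_fixSet hg)).2 p).1 h)
  · have h := card_eq_orbSet_mul (octPointFix o) p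
    have h1 : Nat.card (fixPt (octPointFix o) p) = 1 := by
      rw [Nat.card_eq_one_iff_exists]
      exact ⟨1, fun g => Subtype.ext (eq_one_of_octPointFix ho hp g.2.1 g.2.2)⟩
    rw [(octPointFix_spec ho).1, h1] at h
    rw [Set.ncard_coe_finset, Finset.card_compl, ho.2, show Fintype.card GolayPt = 24 from rfl]
    omega

/-- The stabiliser of an octad splits over the pointwise stabiliser. -/
theorem octad_split {o : Finset GolayPt} (ho : o ∈ octads) {p : GolayPt} (hp : p ∉ o) :
    octPointFix o ⊓ (M24 ⊓ MulAction.stabilizer (Equiv.Perm GolayPt) o ⊓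
        MulAction.stabilizer (Equiv.Perm GolayPt) p) = ⊥ ∧
    octPointFix o ⊔ (M24 ⊓ MulAction.stabilizer (Equiv.Perm GolayPt) o ⊓
        MulAction.stabilizer (Equiv.Perm GolayPt) p) =
      M24 ⊓ MulAction.stabilizer (Equiv.Perm GolayPt) o ∧
    Nonempty (↥(M24 ⊓ MulAction.stabilizer (Equiv.Perm GolayPt) o ⊓
        MulAction.stabilizer (Equiv.Perm GolayPt) p) ≃* alternatingGroup (Fin 8)) := by
  set K := M24 ⊓ MulAction.stabilizer (Equiv.Perm GolayPt) o ⊓
    MulAction.stabilizer (Equiv.Perm GolayPt) p with hK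
  have hKle : K ≤ fixSet M24 o := fun g hg => (mem_octad_stab_iff.1 hg).1
  have hbot : octPointFix o ⊓ K = ⊥ := (Subgroup.eq_bot_iff_forall _).2 fun g hg =>
    eq_one_of_octPointFix ho hp hg.1 (mem_octad_stab_iff.1 hg.2).2
  have hsup : octPointFix o ⊔ K = fixSet M24 o := by
    refine le_antisymm (sup_le octPointFix_le_fixSet hKle) fun g hg => ?_
    obtain ⟨q, hq, hqp⟩ : g p ∈ orbSet (octPointFix o) p := by
      rw [orbSet_octPointFix ho hp, Finset.mem_coe, Finset.mem_compl]
      exact fun h => hp ((mem_iff_of_smul_eq (mem_fixSet_iff.1 hg).2 p).1 h)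
    have : g = q * (q⁻¹ * g) := by group
    rw [this]
    refine Subgroup.mul_mem_sup hq (mem_octad_stab_iff.2 ⟨(fixSet M24 o).mul_mem
      ((fixSet M24 o).inv_mem (octPointFix_le_fixSet hq)) hg, ?_⟩)
    rw [Equiv.Perm.mul_apply, ← hqp, Equiv.Perm.coe_inv, Equiv.symm_apply_apply]
  refine ⟨hbot, hsup, ?_⟩
  let f : K →* alternatingGroup o := ((restrictHom o).comp (Subgroup.inclusion hKle)).codRestrict _
    (fun g => range_restrictHom ho ▸ ⟨_, rfl⟩)
  have hinj : Function.Injective f := (injective_iff_map_eq_one f).2 fun g hg => by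
    have hg' := congrArg Subtype.val hg
    refine Subtype.ext ((Subgroup.eq_bot_iff_forall _).1 hbot g ⟨?_, g.2⟩)
    show (g : Equiv.Perm GolayPt) ∈ octPointFix o
    rw [Subgroup.mem_inf, mem_fixingSubgroup_iff]
    refine ⟨(mem_fixSet_iff.1 (hKle g.2)).1, fun x hx => ?_⟩
    exact congrArg Subtype.val (Equiv.Perm.ext_iff.1 hg' ⟨x, hx⟩)
  have hsurj : Function.Surjective f := by
    rintro ⟨σ, hσ⟩
    rw [← range_restrictHom ho] at hσ
    obtain ⟨⟨g, hg⟩, e⟩ := hσ
    obtain ⟨q, hq, hqp⟩ : g p ∈ orbSet (octPointFix o) p := by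
      rw [orbSet_octPointFix ho hp, Finset.mem_coe, Finset.mem_compl]
      exact fun h => hp ((mem_iff_of_smul_eq (mem_fixSet_iff.1 hg).2 p).1 h)
    refine ⟨⟨q⁻¹ * g, mem_octad_stab_iff.2 ⟨(fixSet M24 o).mul_mem
      ((fixSet M24 o).inv_mem (octPointFix_le_fixSet hq)) hg, ?_⟩⟩, Subtype.ext ?_⟩
    · rw [Equiv.Perm.mul_apply, ← hqp, Equiv.Perm.coe_inv, Equiv.symm_apply_apply]
    · refine Equiv.ext fun x => Subtype.ext ?_
      have hx : (g : Equiv.Perm GolayPt) x = (σ x : GolayPt) :=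
        congrArg Subtype.val (Equiv.Perm.ext_iff.1 e x)
      show (q⁻¹ * g) (x : GolayPt) = (σ x : GolayPt)
      rw [Equiv.Perm.mul_apply, hx, Equiv.Perm.inv_eq_iff_eq]
      rw [Subgroup.mem_inf, mem_fixingSubgroup_iff] at hq
      exact (hq.2 _ (σ x).2).symm
  obtain ⟨e8⟩ : Nonempty (o ≃ Fin 8) := ⟨Fintype.equivFinOfCardEq (by simpa using ho.2)⟩
  exact ⟨(MulEquiv.ofBijective f ⟨hinj, hsurj⟩).trans e8.altCongrHom⟩

end CfsgLib.Mathieu
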