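import Cfsg.Agent.Mathieu.Classes
import Cfsg.Agent.Mathieu.SixSets
import Cfsg.Agent.Mathieu.DataAffine

/-!
The stabiliser of the octad fixed by an involution acts on the sixteen other points by affine
transformations of a four-dimensional space over the field with two elements.
-/

set_option autoImplicit false

open scoped Pointwise Matrix

namespace CfsgLib.Mathieu

open Cfsg CfsgLib.Golay

/-- The fixed octad of the representative involution. -/
abbrev invOct : Finset GolayPt := ofMask invOctadMask

/-- The group of five-by-five matrices. -/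
abbrev SL52 := Matrix.SpecialLinearGroup (Fin 5) (ZMod 2)

/-- The label vector of an index. -/
def labVec (i : ℕ) : Fin 5 → ZMod 2 :=
  fun j => if (affLabels.getD i 0).testBit j then 1 else 0

/-- The label vector of a point. -/
def labV (p : GolayPt) : Fin 5 → ZMod 2 := labVec (p2i p)

/-- A matrix from the bit masks of its columns. -/
def colMat (c : List ℕ) : Matrix (Fin 5) (Fin 5) (ZMod 2) :=
  Matrix.of fun i j => if (c.getD (j : ℕ) 0).testBit (i : ℕ) then 1 else 0

/-- Checks a generator of the octad stabiliser and its matrix. -/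
def affOK (tc : List ℕ × List ℕ) : Bool :=
  tabInM24 tc.1 && maskImageF (pk tc.1) invOctadMask == invOctadMask &&
    (List.range 24).all fun i => invOctadMask.testBit i ||
      decide (colMat tc.2 *ᵥ labVec i = labVec (ap (pk tc.1) i))

theorem aff_gen_facts : affGens.all affOK = true := by decide +kernel

theorem aff_chain_facts : chainOK affOctadChain = true ∧ chainProd affOctadChain = 322560 ∧
    affOctadChain.all (fun l => l.2.1.all fun t => affGens.any fun tc => tc.1 == t) = true ∧
    chainOK affCentChain = true ∧ chainProd affCentChain = 21504 ∧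
    affCentChain.all (fun l => l.2.1.all fun t => tabInM24 t &&
      fcomp t invOctad == fcomp invOctad t) = true := by decide +kernel

theorem aff_frame_facts :
    (∀ j : Fin 5, (Pi.single j 1 : Fin 5 → ZMod 2) = labVec (affFrame.getD j 0) +
      (if j = 1 then 0 else labVec (affFrame.getD 1 0))) ∧
    (∀ j : Fin 5, affFrame.getD (j : ℕ) 0 < 24 ∧ invOctadMask.testBit (affFrame.getD j 0) = false) ∧
    ((List.range 24).all fun i => (List.range 24).all fun k =>
      invOctadMask.testBit i || invOctadMask.testBit k || i == k || decide (labVec i ≠ labVec k)) = true ∧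
    colMat affInvolution = Matrix.transvection 0 1 1 ∧
    ((List.range 24).all fun i => invOctadMask.testBit i ||
      decide (colMat affInvolution *ᵥ labVec i = labVec (ap (pk invOctad) i))) = true := by
  decide +kernel

theorem invOct_mem_octads : invOct ∈ octads :=
  ofMask_mem_octads (by decide +kernel) (by decide +kernel)

theorem fixedPts_invOctad {g : Equiv.Perm GolayPt} (h : toTab g = invOctad) :
    fixedPts g = invOct := by
  ext p
  rw [mem_fixedPts, mem_ofMask_iff]
  have h1 := List.all_eq_true.1 invOctad_facts (p2i p) (List.mem_range.2 (p2i_lt p))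
  rw [beq_iff_eq, ← h, ap_toTab'] at h1
  rw [← h1, beq_iff_eq]
  exact ⟨fun e => by rw [e], fun e => p2i_injective e⟩

/-- The elements of the octad stabiliser that act by a matrix on the labels. -/
def affSub : Submonoid (Equiv.Perm GolayPt) where
  carrier := {g | g ∈ fixSet M24 invOct ∧
    ∃ M : Matrix (Fin 5) (Fin 5) (ZMod 2), ∀ p ∉ invOct, M *ᵥ labV p = labV (g p)}
  one_mem' := ⟨Subgroup.one_mem _, 1, fun p _ => by rw [Matrix.one_mulVec, Equiv.Perm.one_apply]⟩
  mul_mem' := by
    rintro g h ⟨hg, M, hM⟩ ⟨hh, N, hN⟩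
    refine ⟨Subgroup.mul_mem _ hg hh, M * N, fun p hp => ?_⟩
    rw [← Matrix.mulVec_mulVec, hN p hp, hM _ (fun e => hp ((mem_iff_of_smul_eq
      (mem_fixSet_iff.1 hh).2 p).1 e)), Equiv.Perm.mul_apply]

/-- The same elements, as a subgroup. -/
def affGroup : Subgroup (Equiv.Perm GolayPt) :=
  { affSub with
    inv_mem' := fun {g} hg => by
      have e : g⁻¹ = g ^ (orderOf g - 1) := inv_eq_of_mul_eq_one_right (by
        rw [← pow_succ', Nat.sub_add_cancel (orderOf_pos g), pow_orderOf_eq_one])
      rw [e]
      exact pow_mem (S := affSub) hg _ }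

theorem affGroup_eq : affGroup = fixSet M24 invOct := by
  have hle : affGroup ≤ fixSet M24 invOct := fun g hg => hg.1
  refine Subgroup.eq_of_le_of_card_ge hle ?_
  rw [card_fixSet_octad invOct_mem_octads, ← aff_chain_facts.2.1]
  refine chainProd_le_card _ _ (fun l hl t ht => ?_) aff_chain_facts.1
  have h := List.all_eq_true.1 (List.all_eq_true.1 aff_chain_facts.2.2.1 l hl) t ht
  rw [List.any_eq_true] at h
  obtain ⟨tc, htc, e⟩ := h
  rw [beq_iff_eq] at e
  subst e
  have hok := List.all_eq_true.1 aff_gen_facts tc htc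
  simp only [affOK, Bool.and_eq_true, beq_iff_eq] at hok
  obtain ⟨⟨hin, hmask⟩, hmat⟩ := hok
  obtain ⟨g, hg, hgt⟩ := rep_of_tabInM24 hin
  refine ⟨g, ⟨mem_fixSet_iff.2 ⟨hg, ?_⟩, colMat tc.2, fun p hp => ?_⟩, hgt⟩
  · rw [← hgt, maskImageF_eq] at hmask
    rw [smul_ofMask_tab, hmask]
  · have h1 := List.all_eq_true.1 hmat (p2i p) (List.mem_range.2 (p2i_lt p))
    rw [mem_ofMask_iff] at hp
    simp only [Bool.not_eq_true] at hp
    rw [hp, Bool.false_or, decide_eq_true_eq, ← hgt, ap_toTab'] at h1
    exact h1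

theorem exists_affMat {g : Equiv.Perm GolayPt} (hg : g ∈ fixSet M24 invOct) :
    ∃ M : Matrix (Fin 5) (Fin 5) (ZMod 2), ∀ p ∉ invOct, M *ᵥ labV p = labV (g p) := by
  rw [← affGroup_eq] at hg
  exact hg.2

/-- A matrix is determined by its values on the labels. -/
theorem affMat_ext {M N : Matrix (Fin 5) (Fin 5) (ZMod 2)}
    (h : ∀ p ∉ invOct, M *ᵥ labV p = N *ᵥ labV p) : M = N := by
  have key : ∀ k : Fin 5, M *ᵥ labVec (affFrame.getD k 0) = N *ᵥ labVec (affFrame.getD k 0) := by
    intro k
    obtain ⟨hlt, hout⟩ := aff_frame_facts.2.1 k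
    have := h (i2p (affFrame.getD k 0)) (by
      rw [mem_ofMask_iff, p2i_i2p _ hlt, hout]; simp)
    rwa [labV, p2i_i2p _ hlt] at this
  ext i j
  have e : M *ᵥ (Pi.single j 1) = N *ᵥ (Pi.single j 1) := by
    rw [aff_frame_facts.1 j, Matrix.mulVec_add, Matrix.mulVec_add, key j]
    split_ifs with hj
    · rw [Matrix.mulVec_zero, Matrix.mulVec_zero]
    · exact congrArg _ (key 1)
  have := congrFun e i
  simpa using this

/-- The matrix of an element of the octad stabiliser. -/
noncomputable def affMat (g : fixSet M24 invOct) : Matrix (Fin 5) (Fin 5) (ZMod 2) :=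
  Classical.choose (exists_affMat g.2)

theorem affMat_spec (g : fixSet M24 invOct) {p : GolayPt} (hp : p ∉ invOct) :
    affMat g *ᵥ labV p = labV ((g : Equiv.Perm GolayPt) p) :=
  Classical.choose_spec (exists_affMat g.2) p hp

theorem affMat_mul (g h : fixSet M24 invOct) : affMat (g * h) = affMat g * affMat h := by
  refine affMat_ext fun p hp => ?_
  rw [affMat_spec _ hp, ← Matrix.mulVec_mulVec, affMat_spec h hp,
    affMat_spec g (fun e => hp ((mem_iff_of_smul_eq (mem_fixSet_iff.1 h.2).2 p).1 e))]
  rfl

theorem affMat_one : affMat 1 = 1 :=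
  affMat_ext fun p hp => by rw [affMat_spec _ hp, Matrix.one_mulVec]; rfl

theorem affMat_det (g : fixSet M24 invOct) : (affMat g).det = 1 := by
  have h := congrArg Matrix.det (affMat_mul g g⁻¹)
  rw [mul_inv_cancel, affMat_one, Matrix.det_mul, Matrix.det_one] at h
  rcases (by decide : ∀ a : ZMod 2, a = 0 ∨ a = 1) (affMat g).det with e | e
  · rw [e, zero_mul] at h
    exact absurd h one_ne_zero
  · exact e

/-- The representation of the octad stabiliser in `SL(5, 2)`. -/
noncomputable def affHom : fixSet M24 invOct →* SL52 where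
  toFun g := ⟨affMat g, affMat_det g⟩
  map_one' := Subtype.ext affMat_one
  map_mul' g h := Subtype.ext (affMat_mul g h)

theorem affHom_injective : Function.Injective affHom := by
  refine (injective_iff_map_eq_one _).2 fun g hg => Subtype.ext ?_
  have hM : affMat g = 1 := congrArg Subtype.val hg
  have hout : ∀ p ∈ invOctᶜ, p ∈ fixedPts (g : Equiv.Perm GolayPt) := by
    intro p hp
    rw [Finset.mem_compl] at hp
    rw [mem_fixedPts]
    have hgp : (g : Equiv.Perm GolayPt) p ∉ invOct :=
      fun e => hp ((mem_iff_of_smul_eq (mem_fixSet_iff.1 g.2).2 p).1 e)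
    have e := affMat_spec g hp
    rw [hM, Matrix.one_mulVec] at e
    have h1 := List.all_eq_true.1 (List.all_eq_true.1 aff_frame_facts.2.2.1 (p2i p)
      (List.mem_range.2 (p2i_lt p))) (p2i ((g : Equiv.Perm GolayPt) p))
      (List.mem_range.2 (p2i_lt _))
    rw [mem_ofMask_iff, Bool.not_eq_true] at hp hgp
    rw [hp, hgp] at h1
    simp only [Bool.false_or, Bool.or_eq_true, beq_iff_eq, decide_eq_true_eq] at h1
    exact p2i_injective (h1.resolve_right fun hne => hne e).symm
  refine eq_one_of_nine_fixed (mem_fixSet_iff.1 g.2).1 (le_trans ?_ (Finset.card_le_card hout))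
  rw [Finset.card_compl, invOct_mem_octads.2, show Fintype.card GolayPt = 24 from rfl]
  norm_num

/-- The centraliser of an octad involution is the centraliser of a transvection in `SL(5, 2)`. -/
theorem exists_centralizer_equiv (s : SL52)
    (hs : (s : Matrix (Fin 5) (Fin 5) (ZMod 2)) = Matrix.transvection 0 1 1)
    (hcard : Nat.card (Subgroup.centralizer ({s} : Set SL52)) = 21504)
    {z : ↥M24} (hz : toTab (z : Equiv.Perm GolayPt) = invOctad) :
    ∃ e : ↥(Subgroup.centralizer ({z} : Set ↥M24)) ≃* ↥(Subgroup.centralizer ({s} : Set SL52)),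
      (e ⟨z, Subgroup.mem_centralizer_singleton_iff.2 rfl⟩ : SL52) = s := by
  set C := Subgroup.centralizer ({z} : Set ↥M24) with hC
  have hfz := fixedPts_invOctad hz
  have hmem : ∀ c : C, ((c : ↥M24) : Equiv.Perm GolayPt) ∈ fixSet M24 invOct := by
    intro c
    refine mem_fixSet_iff.2 ⟨(c : ↥M24).2, ?_⟩
    have e : ((c : ↥M24) : Equiv.Perm GolayPt) * z * ((c : ↥M24) : Equiv.Perm GolayPt)⁻¹ = z := by
      rw [mul_inv_eq_iff_eq_mul]
      exact congrArg Subtype.val (Subgroup.mem_centralizer_singleton_iff.1 c.2)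
    rw [← hfz, ← fixedPts_conj, e]
  let ι : C →* fixSet M24 invOct := (M24.subtype.comp C.subtype).codRestrict _ hmem
  have hι : Function.Injective ι := fun a b e =>
    Subtype.ext (Subtype.ext (congrArg (fun x : fixSet M24 invOct => (x : Equiv.Perm GolayPt)) e))
  have hzs : affHom (ι ⟨z, Subgroup.mem_centralizer_singleton_iff.2 rfl⟩) = s := by
    refine Subtype.ext ?_
    rw [hs, ← aff_frame_facts.2.2.2.1]
    refine affMat_ext fun p hp => ?_
    show affMat _ *ᵥ labV p = _
    rw [affMat_spec _ hp]
    have h1 := List.all_eq_true.1 aff_frame_facts.2.2.2.2 (p2i p) (List.mem_range.2 (p2i_lt p))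
    rw [mem_ofMask_iff, Bool.not_eq_true] at hp
    rw [hp, Bool.false_or, decide_eq_true_eq, ← hz, ap_toTab'] at h1
    exact h1.symm
  have hrange : ∀ c, affHom (ι c) ∈ Subgroup.centralizer ({s} : Set SL52) := by
    intro c
    rw [Subgroup.mem_centralizer_singleton_iff, ← hzs, ← map_mul, ← map_mul, ← map_mul, ← map_mul]
    congr 2
    exact Subtype.ext (Subgroup.mem_centralizer_singleton_iff.1 c.2)
  let f : C →* ↥(Subgroup.centralizer ({s} : Set SL52)) := (affHom.comp ι).codRestrict _ hrange
  have hinj : Function.Injective f := fun a b e => hι (affHom_injective (congrArg Subtype.val e))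
  have hge : 21504 ≤ Nat.card C := by
    refine le_trans ?_ (Nat.card_le_card_of_injective
      (fun c : centM24 (z : Equiv.Perm GolayPt) => (⟨⟨c, (mem_centM24.1 c.2).1⟩,
        Subgroup.mem_centralizer_singleton_iff.2 (Subtype.ext (mem_centM24.1 c.2).2)⟩ : C))
      (fun a b e => Subtype.ext (congrArg (fun x : C => ((x : ↥M24) : Equiv.Perm GolayPt)) e)))
    rw [← aff_chain_facts.2.2.2.2.1]
    refine chainProd_le_card _ _ (fun l hl t ht => ?_) aff_chain_facts.2.2.2.1
    have h := List.all_eq_true.1 (List.all_eq_true.1 aff_chain_facts.2.2.2.2.2 l hl) t ht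
    simp only [Bool.and_eq_true, beq_iff_eq] at h
    obtain ⟨g, hg, hgt⟩ := rep_of_tabInM24 h.1
    refine ⟨g, mem_centM24.2 ⟨hg, toTab_injective ?_⟩, hgt⟩
    rw [← fcomp_toTab, ← fcomp_toTab, hgt, hz]
    exact h.2
  have hbij : Function.Bijective f := (Nat.bijective_iff_injective_and_card f).2
    ⟨hinj, le_antisymm (Nat.card_le_card_of_injective f hinj) (by rw [hcard]; exact hge)⟩
  exact ⟨MulEquiv.ofBijective f hbij, hzs⟩

theorem exists_octad_involution : ∃ z : ↥M24, orderOf z = 2 ∧
    toTab (z : Equiv.Perm GolayPt) = invOctad := by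
  obtain ⟨g, hg, e⟩ := rep_of_tabInM24 data_rep.2.2.2.2.2.1
  refine ⟨⟨g, hg⟩, ?_, e⟩
  haveI : Fact (Nat.Prime 2) := ⟨Nat.prime_two⟩
  rw [← Subgroup.orderOf_coe]
  refine orderOf_eq_prime (eq_one_of_cntFix hg ?_) fun h => ?_
  · rw [e]; decide +kernel
  · have h' : toTab g = idTab := by rw [show g = 1 from h, toTab_one]
    rw [e] at h'
    revert h'
    decide +kernel

end CfsgLib.Mathieu
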