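import Cfsg.Agent.Mathieu.Affine
import Cfsg.Agent.Amalgam.CharPVertices
import Cfsg.Agent.LargeExtraspecial.Simple
import Cfsg.Agent.LargeExtraspecial.Section
import Cfsg.Agent.S5424
import Cfsg.Agent.S0445

/-!
The centraliser of an involution of `M24` with eight fixed points: a large extraspecial subgroup of
order `2 ^ 7` extended by `SL(3, 2)`.
-/

set_option autoImplicit false

open scoped Pointwise

namespace CfsgLib.Mathieu

open Cfsg CfsgLib.Golay CfsgLib.LargeExtraspecial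

/-- The properties of the transvection centraliser transported along an isomorphism of centralisers. -/
theorem large_extraspecial_of_equiv {G : Type*} [Group G] [Finite G] {z : G} (hz : orderOf z = 2)
    (s : SL52) (hs : (s : Matrix (Fin 5) (Fin 5) (ZMod 2)) = Matrix.transvection 0 1 1)
    (e : ↥(Subgroup.centralizer ({z} : Set G)) ≃* ↥(Subgroup.centralizer ({s} : Set SL52)))
    (he : (e ⟨z, Subgroup.mem_centralizer_singleton_iff.2 rfl⟩ : SL52) = s)
    {N : Subgroup G} (hN : N ≤ Subgroup.centralizer ({z} : Set G))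
    (hNn : ∀ c ∈ Subgroup.centralizer ({z} : Set G), ∀ n ∈ N, c * n * c⁻¹ ∈ N)
    (hNp : IsPGroup 2 ↥N) (g : G) (hg : g * z * g⁻¹ ∈ N) (hgz : g * z * g⁻¹ ≠ z)
    (Q : Subgroup G) (hQ : Q = (Cfsg.pCore 2 ↥(Subgroup.centralizer ({z} : Set G))).map
      (Subgroup.centralizer ({z} : Set G)).subtype) :
    Cfsg.IsExtraspecial 2 ↥Q ∧ Nat.card ↥Q = 2 ^ 7 ∧
    (∃ E : Subgroup G, E ≤ Q ∧ Cfsg.IsElementaryAbelian 2 E ∧ Nat.card ↥E = 2 ^ 4) ∧
    Cfsg.IsLargeExtraspecial Q ∧
    ∃ K : Subgroup G, K ≤ Subgroup.centralizer ({z} : Set G) ∧ Q ⊓ K = ⊥ ∧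
      Q ⊔ K = Subgroup.centralizer ({z} : Set G) ∧
      Nonempty (↥K ≃* Matrix.SpecialLinearGroup (Fin 3) (ZMod 2)) := by
  obtain ⟨hex, hcard, ⟨E, hEQ, hEab, hEcard⟩, hlarge, K, hK, hbot, hsup, ⟨eK⟩⟩ :=
    Cfsg.Agent.S5424.result 3 (by norm_num) s hs _ rfl
  let C := Subgroup.centralizer ({z} : Set G)
  let D := Subgroup.centralizer ({s} : Set SL52)
  let zC : C := ⟨z, Subgroup.mem_centralizer_singleton_iff.2 rfl⟩
  have hcore : (pCore 2 ↥C).map e.toMonoidHom = pCore 2 ↥D := CfsgLib.Amalgam.map_pCore_equiv e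
  -- transport of subgroups of `D`
  let back : ∀ X : Subgroup SL52, Subgroup G := fun X =>
    ((X.subgroupOf D).map e.symm.toMonoidHom).map C.subtype
  have hback_le : ∀ X, back X ≤ C := fun X => Subgroup.map_subtype_le _
  have hmem : ∀ (X : Subgroup SL52) (c : C), (c : G) ∈ back X ↔ (e c : SL52) ∈ X := by
    intro X c
    show (c : G) ∈ ((X.subgroupOf D).map e.symm.toMonoidHom).map C.subtype ↔ _
    rw [show (c : G) = C.subtype c from rfl, Subgroup.mem_map_iff_mem C.subtype_injective]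
    constructor
    · rintro ⟨d, hd, rfl⟩
      simpa [Subgroup.mem_subgroupOf] using hd
    · exact fun h => ⟨e c, h, e.symm_apply_apply c⟩
  have hequiv : ∀ X, X ≤ D → Nonempty (↥(back X) ≃* ↥X) := fun X hX =>
    ⟨((((X.subgroupOf D).equivMapOfInjective e.symm.toMonoidHom e.symm.injective).trans
      (((X.subgroupOf D).map e.symm.toMonoidHom).equivMapOfInjective C.subtype
        C.subtype_injective)).symm).trans (Subgroup.subgroupOfEquivOfLe hX)⟩
  set R := (pCore 2 ↥D).map D.subtype with hR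
  have hRD : R ≤ D := Subgroup.map_subtype_le _
  have hQback : Q = back R := by
    rw [hQ]
    ext x
    constructor
    · rintro ⟨c, hc, rfl⟩
      refine (hmem R c).2 ⟨e c, ?_, rfl⟩
      rw [← hcore]
      exact ⟨c, hc, rfl⟩
    · intro hx
      obtain ⟨d, hd, e'⟩ := (hmem R ⟨x, hback_le R hx⟩).1 hx
      rw [SetLike.mem_coe, ← hcore] at hd
      obtain ⟨c, hc, rfl⟩ := hd
      have h := e.injective (Subtype.ext e' : (e.toMonoidHom c : D) = e ⟨x, hback_le R hx⟩)
      exact ⟨c, hc, congrArg Subtype.val h⟩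
  obtain ⟨eQ⟩ := hequiv R hRD
  have hQC : Q ≤ C := hQback ▸ hback_le R
  have hQR : ∀ c : C, (c : G) ∈ Q ↔ (e c : SL52) ∈ R := fun c => by rw [hQback]; exact hmem R c
  have hexQ : IsExtraspecial 2 ↥Q := by
    rw [hQback]
    exact isExtraspecial_of_mulEquiv eQ.symm hex
  have hcardQ : Nat.card ↥Q = 2 ^ 7 := by
    rw [hQback, Nat.card_congr eQ.toEquiv]
    exact hcard
  -- the centre
  have hsC : s ∈ Subgroup.centralizer (R : Set SL52) := Subgroup.mem_centralizer_iff.2 fun r hr =>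
    Subgroup.mem_centralizer_singleton_iff.1 (hRD hr)
  have hsR : s ∈ R := by
    rw [hlarge.2.1] at hsC
    exact zOf_le R hsC
  have hzQ : z ∈ Q := (hQR zC).2 (by rw [show (e zC : SL52) = s from he]; exact hsR)
  have hzc : ∀ q ∈ Q, q * z = z * q := fun q hq =>
    Subgroup.mem_centralizer_singleton_iff.1 (hQC hq)
  obtain ⟨w, -, -, hw⟩ := exists_gen hexQ
  have hz1 : z ≠ 1 := fun h => by rw [h, orderOf_one] at hz; omega
  obtain rfl : z = w := ((hw z).1 (mem_zOf.2 ⟨hzQ, hzc⟩)).resolve_left hz1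
  have hset : Setting Q z := by
    refine ⟨hexQ, hw, hz, le_antisymm (fun x hx => ?_) (zOf_le_centralizer Q), fun c hc q => ?_⟩
    · have hxC : x ∈ C := Subgroup.mem_centralizer_singleton_iff.2
        (Subgroup.mem_centralizer_iff.1 hx z hzQ).symm
      have hxR : (e ⟨x, hxC⟩ : SL52) ∈ Subgroup.centralizer (R : Set SL52) := by
        refine Subgroup.mem_centralizer_iff.2 fun r hr => ?_
        obtain ⟨d, hd⟩ := e.surjective ⟨r, hRD hr⟩
        have hdQ : (d : G) ∈ Q := (hQR d).2 (by rw [hd]; exact hr)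
        have h := congrArg (fun u : C => (e u : SL52))
          (Subtype.ext (Subgroup.mem_centralizer_iff.1 hx d hdQ) : d * ⟨x, hxC⟩ = ⟨x, hxC⟩ * d)
        simpa [hd] using h
      rw [hlarge.2.1] at hxR
      have hxQ : x ∈ Q := (hQR ⟨x, hxC⟩).2 (zOf_le R hxR)
      exact mem_zOf.2 ⟨hxQ, fun q hq => Subgroup.mem_centralizer_iff.1 hx q hq⟩
    · have hcC : c ∈ C := Subgroup.mem_centralizer_singleton_iff.2 hc
      have key : ∀ a ∈ C, ∀ v ∈ Q, a * v * a⁻¹ ∈ Q := by
        intro a ha v hv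
        rw [hQ] at hv ⊢
        have := conj_mem_map_pCore C (C.inv_mem ha) hv
        rwa [inv_inv] at this
      refine ⟨key c hcC q, fun h => ?_⟩
      have := key c⁻¹ (C.inv_mem hcC) _ h
      simpa [mul_assoc] using this
  have hNQ : N ≤ Q := hQ ▸ le_map_pCore hN hNn hNp
  refine ⟨hexQ, hcardQ, ⟨back E, fun x hx => ?_, ?_, ?_⟩,
    isLarge_of_conj_mem hset (by rw [hcardQ]; norm_num) g (hNQ hg) hgz,
    back K, hback_le K, ?_, ?_, ?_⟩
  · rw [hQback]
    exact (hmem R ⟨x, hback_le E hx⟩).2 (hEQ ((hmem E ⟨x, hback_le E hx⟩).1 hx))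
  · obtain ⟨eE⟩ := hequiv E (hEQ.trans hRD)
    refine ⟨⟨⟨fun a b => eE.injective ?_⟩⟩, fun x hx => ?_⟩
    · rw [map_mul, map_mul]
      exact hEab.1.is_comm.comm _ _
    · have h := hEab.2 _ (eE ⟨x, hx⟩).2
      have h' : (eE ⟨x, hx⟩) ^ 2 = 1 := Subtype.ext h
      rw [← map_pow, ← map_one eE] at h'
      exact congrArg Subtype.val (eE.injective h')
  · obtain ⟨eE⟩ := hequiv E (hEQ.trans hRD)
    rw [Nat.card_congr eE.toEquiv]
    exact hEcard
  · refine (Subgroup.eq_bot_iff_forall _).2 fun x hx => ?_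
    set c : C := ⟨x, hback_le K hx.2⟩ with hc
    have h : (e c : SL52) = 1 := (Subgroup.eq_bot_iff_forall _).1 hbot _
      ⟨(hQR c).1 hx.1, (hmem K c).1 hx.2⟩
    have h' : c = 1 := e.injective (Subtype.ext (h.trans (by rw [map_one]; rfl)))
    exact congrArg Subtype.val h'
  · refine le_antisymm (sup_le hQC (hback_le K)) fun x hx => ?_
    have hmap : D ≤ ((Q ⊔ back K).subgroupOf C).map (D.subtype.comp e.toMonoidHom) := by
      refine hsup.symm.le.trans (sup_le (fun r hr => ?_) (fun r hr => ?_))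
      · obtain ⟨d, hd⟩ := e.surjective ⟨r, hRD hr⟩
        exact ⟨d, Subgroup.mem_sup_left ((hQR d).2 (by rw [hd]; exact hr)), congrArg Subtype.val hd⟩
      · obtain ⟨d, hd⟩ := e.surjective ⟨r, hK hr⟩
        exact ⟨d, Subgroup.mem_sup_right ((hmem K d).2 (by rw [hd]; exact hr)),
          congrArg Subtype.val hd⟩
    obtain ⟨d, hd, hde⟩ := hmap (e ⟨x, hx⟩).2
    have h' : d = ⟨x, hx⟩ := e.injective (Subtype.ext hde)
    rw [h'] at hd
    exact hd
  · obtain ⟨f⟩ := hequiv K hK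
    exact ⟨f.trans eK⟩

theorem card_transvection_centralizer (s : SL52)
    (hs : (s : Matrix (Fin 5) (Fin 5) (ZMod 2)) = Matrix.transvection 0 1 1) :
    Nat.card (Subgroup.centralizer ({s} : Set SL52)) = 21504 := Cfsg.Agent.S0445.result s hs

/-- For an arbitrary involution with an octad of fixed points. -/
theorem exists_centralizer_equiv_of_fix {z : ↥M24} (hz : orderOf z = 2)
    (hfix : fixedPts (z : Equiv.Perm GolayPt) ∈ octads) (s : SL52)
    (hs : (s : Matrix (Fin 5) (Fin 5) (ZMod 2)) = Matrix.transvection 0 1 1) :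
    ∃ e : ↥(Subgroup.centralizer ({z} : Set ↥M24)) ≃* ↥(Subgroup.centralizer ({s} : Set SL52)),
      (e ⟨z, Subgroup.mem_centralizer_singleton_iff.2 rfl⟩ : SL52) = s := by
  rcases exists_conj_involution z.2 (by rwa [Subgroup.orderOf_coe]) with ⟨h0, -⟩ | ⟨-, k, hk, hkz⟩
  · rw [hfix.2] at h0; omega
  set k' : ↥M24 := ⟨k, hk⟩
  set z' : ↥M24 := k' * z * k'⁻¹ with hz'
  obtain ⟨e, he⟩ := exists_centralizer_equiv s hs (card_transvection_centralizer s hs)
    (z := z') hkz
  have hmem : ∀ a b c : ↥M24, c * a = a * c →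
      (b * c * b⁻¹) * (b * a * b⁻¹) = (b * a * b⁻¹) * (b * c * b⁻¹) := fun a b c h => by
    calc _ = b * (c * a) * b⁻¹ := by group
      _ = b * (a * c) * b⁻¹ := by rw [h]
      _ = _ := by group
  let f : ↥(Subgroup.centralizer ({z} : Set ↥M24)) ≃* ↥(Subgroup.centralizer ({z'} : Set ↥M24)) :=
    { toFun := fun c => ⟨k' * c * k'⁻¹, Subgroup.mem_centralizer_singleton_iff.2
        (hmem z k' c (Subgroup.mem_centralizer_singleton_iff.1 c.2))⟩
      invFun := fun c => ⟨k'⁻¹ * c * k'⁻¹⁻¹, Subgroup.mem_centralizer_singleton_iff.2 (by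
        have := hmem z' k'⁻¹ c (Subgroup.mem_centralizer_singleton_iff.1 c.2)
        rwa [show k'⁻¹ * z' * k'⁻¹⁻¹ = z by rw [hz']; group] at this)⟩
      left_inv := fun c => Subtype.ext (by group)
      right_inv := fun c => Subtype.ext (by group)
      map_mul' := fun a b => Subtype.ext (by simp only [Subgroup.coe_mul]; group) }
  refine ⟨f.trans e, ?_⟩
  exact (congrArg (fun d => ((e d : ↥(Subgroup.centralizer ({s} : Set SL52))) : SL52))
    (Subtype.ext (rfl : k' * z * k'⁻¹ = z'))).trans he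

end CfsgLib.Mathieu
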